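import Cfsg.Agent.Lib.OrthSylow2.Main
import Cfsg.Agent.Lib.Elusive.QuadCount
import Cfsg.Prelude.Def_Classical

/-!
# Sylow 2-subgroups of `O⁺(2m, 2)` pairwise meet: the concrete form.
-/

set_option autoImplicit false
set_option linter.unusedSectionVars false
set_option linter.unusedSimpArgs false
set_option linter.style.haveILetI false
set_option linter.unusedVariables false

open scoped Pointwise
open Matrix

namespace Cfsg.Agent.Lib.OrthSylow2.Concrete

open Cfsg.Agent.Lib.OrthSylow2.Main

variable {F : Type*} [Field F] [Fintype F] {m : ℕ}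

/-- The polar form. -/
def polar (x y : Fin m ⊕ Fin m → F) : F :=
  ∑ i : Fin m, (x (.inl i) * y (.inr i) + y (.inl i) * x (.inr i))

theorem qsp (hF : Fintype.card F = 2) : Qsp (Cfsg.quadFormPlus m F) (polar (F := F) (m := m)) where
  hF := hF
  hQ := by
    intro x y
    simp only [Cfsg.quadFormPlus, polar, Pi.add_apply]
    rw [← Finset.sum_add_distrib, ← Finset.sum_add_distrib]
    refine Finset.sum_congr rfl fun i _ => ?_
    ring
  hl := by
    intro x y z
    simp only [polar, Pi.add_apply]
    rw [← Finset.sum_add_distrib]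
    refine Finset.sum_congr rfl fun i _ => ?_
    ring
  hs := by
    intro x y
    simp only [polar]
    refine Finset.sum_congr rfl fun i _ => ?_
    ring
  hnd := by
    classical
    intro x hx
    obtain ⟨c, hc⟩ : ∃ c, x c ≠ 0 := by
      by_contra h
      push_neg at h
      exact hx (funext h)
    rcases c with i | i
    · refine ⟨Pi.single (.inr i) 1, ?_⟩
      have : polar (Pi.single (.inr i) 1 : Fin m ⊕ Fin m → F) x = x (.inl i) := by
        simp only [polar, Pi.single_apply]
        rw [Finset.sum_eq_single i]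
        · simp
        · intro j _ hj
          simp [hj]
        · simp
      rwa [this]
    · refine ⟨Pi.single (.inl i) 1, ?_⟩
      have : polar (Pi.single (.inl i) 1 : Fin m ⊕ Fin m → F) x = x (.inr i) := by
        simp only [polar, Pi.single_apply]
        rw [Finset.sum_eq_single i]
        · simp
        · intro j _ hj
          simp [hj]
        · simp
      rwa [this]

/-- The isometry group. -/
abbrev Gp (F : Type*) [Field F] (m : ℕ) := Cfsg.isometryGroup F (Cfsg.quadFormPlus m F)

/-- The underlying matrix of an isometry. -/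
def mat (g : Gp F m) : Matrix (Fin m ⊕ Fin m) (Fin m ⊕ Fin m) F := ((g : Matrix.GeneralLinearGroup (Fin m ⊕ Fin m) F)).val

@[simp] theorem mat_one : mat (1 : Gp F m) = 1 := rfl

@[simp] theorem mat_mul (a b : Gp F m) : mat (a * b) = mat a * mat b := rfl

/-- The natural action of the isometry group on column vectors. -/
@[reducible] def act : DistribMulAction (Gp F m) (Fin m ⊕ Fin m → F) where
  smul g v := mat g *ᵥ v
  one_smul v := by
    show mat (1 : Gp F m) *ᵥ v = v
    simp
  mul_smul a b v := by
    show mat (a * b) *ᵥ v = mat a *ᵥ (mat b *ᵥ v)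
    simp [Matrix.mulVec_mulVec]
  smul_zero g := by
    show mat g *ᵥ (0 : Fin m ⊕ Fin m → F) = 0
    simp
  smul_add g a b := by
    show mat g *ᵥ (a + b) = mat g *ᵥ a + mat g *ᵥ b
    rw [Matrix.mulVec_add]

theorem main_plus (hF : Fintype.card F = 2) (hm : 1 ≤ m)
    (H : Sylow 2 (Cfsg.isometryGroup F (Cfsg.quadFormPlus m F)))
    (x : Cfsg.isometryGroup F (Cfsg.quadFormPlus m F)) :
    (H : Subgroup (Cfsg.isometryGroup F (Cfsg.quadFormPlus m F))) ⊓ MulAut.conj x • (H : Subgroup _) ≠ ⊥ := by
  classical
  letI := act (F := F) (m := m)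
  have hact : ∀ (g : Gp F m) (v : Fin m ⊕ Fin m → F), g • v = mat g *ᵥ v := fun g v => rfl
  refine Qsp.main (V := Fin m ⊕ Fin m → F) (qsp (m := m) hF) (G := Gp F m) ?_ ?_ ?_ hm ?_ ?_ H x
  · intro g v
    rw [hact]
    exact g.2 v v
  · intro g hg
    apply Subtype.ext
    apply Units.ext
    show mat g = 1
    have h1 : Matrix.toLin' (mat g) = LinearMap.id := by
      ext1 i
      ext j
      simp only [LinearMap.coe_comp, Function.comp_apply, LinearMap.single_apply, Matrix.toLin'_apply,
        LinearMap.id_comp, LinearMap.coe_single]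
      rw [← hact, hg]
    have h2 : Matrix.toLin' (mat g) = Matrix.toLin' (1 : Matrix (Fin m ⊕ Fin m) (Fin m ⊕ Fin m) F) := by
      rw [h1, Matrix.toLin'_one]
    exact Matrix.toLin'.injective h2
  · intro t ht1 ht2
    -- `t` is `F`-linear
    let L : (Fin m ⊕ Fin m → F) →ₗ[F] (Fin m ⊕ Fin m → F) :=
      { toFun := t
        map_add' := t.map_add
        map_smul' := by
          intro c y
          rcases two_val hF c with rfl | rfl
          · simp
          · simp }
    let M : Matrix (Fin m ⊕ Fin m) (Fin m ⊕ Fin m) F := LinearMap.toMatrix' L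
    have hM : ∀ y, M *ᵥ y = t y := fun y => LinearMap.toMatrix'_mulVec L y
    have hMM : M * M = 1 := by
      apply Matrix.toLin'.injective
      ext1 i
      ext j
      simp only [LinearMap.coe_comp, Function.comp_apply, LinearMap.single_apply, Matrix.toLin'_apply,
        Matrix.toLin'_one, LinearMap.id_comp, LinearMap.coe_single]
      rw [← Matrix.mulVec_mulVec, hM, hM, ht1]
    let u : Matrix.GeneralLinearGroup (Fin m ⊕ Fin m) F := ⟨M, M, hMM, hMM⟩
    refine ⟨⟨u, ?_⟩, fun y => hM y⟩
    intro a b
    show Cfsg.quadFormPlus m F (M *ᵥ a) = Cfsg.quadFormPlus m F a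
    rw [hM, ht2]
  · simp [Nat.card_eq_fintype_card, hF]
    ring
  · have h := Cfsg.Agent.Lib.Elusive.QuadCount.card_plus_eq hF m (0 : F)
    rw [if_pos rfl] at h
    rw [h]
    obtain ⟨n, rfl⟩ : ∃ n, m = n + 1 := ⟨m - 1, by omega⟩
    simp only [Nat.add_sub_cancel]
    have h2 : (2 : ℕ) ^ (n + 1) ≥ 1 := Nat.one_le_two_pow
    push_cast [Nat.cast_sub h2]
    ring

end Cfsg.Agent.Lib.OrthSylow2.Concrete
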