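import Mathlib

/-!
# Sylow 2-subgroups of the orthogonal group of a plus-type form over the field with two elements
pairwise intersect nontrivially.

Abstract setting: `V` an elementary abelian 2-group with a nondegenerate quadratic function
`Q : V → F`, `F` the field with two elements, of Witt index `m` in the sense that
`#{Q = 0} = 2^(2m-1)+2^(m-1)`, `#V = 2^(2m)`.
-/

set_option autoImplicit false
set_option linter.unusedSectionVars false
set_option linter.unusedSimpArgs false
set_option linter.style.haveILetI false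
set_option linter.unusedVariables false

open scoped Pointwise

namespace Cfsg.Agent.Lib.OrthSylow2.Main

section Field

variable {F : Type*} [Field F] [Fintype F]

theorem two_val (hF : Fintype.card F = 2) (t : F) : t = 0 ∨ t = 1 := by
  classical
  by_contra h
  push_neg at h
  have h3 : ({0, 1, t} : Finset F).card = 3 := by
    rw [Finset.card_insert_of_notMem, Finset.card_insert_of_notMem, Finset.card_singleton]
    · simpa using h.2.symm
    · simp only [Finset.mem_insert, Finset.mem_singleton, not_or]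
      exact ⟨zero_ne_one, h.1.symm⟩
  have := Finset.card_le_univ ({0, 1, t} : Finset F)
  omega

theorem one_add_one (hF : Fintype.card F = 2) : (1 : F) + 1 = 0 := by
  rcases two_val hF ((1 : F) + 1) with h | h
  · exact h
  · exfalso
    have : (1 : F) = 0 := by
      have h' : (1 : F) + 1 = 1 + 0 := by rw [h, add_zero]
      exact add_left_cancel h'
    exact one_ne_zero this

theorem add_self_eq (hF : Fintype.card F = 2) (t : F) : t + t = 0 := by
  rcases two_val hF t with rfl | rfl
  · simp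
  · exact one_add_one hF

open Classical in
/-- The additive character of `F`. -/
noncomputable def e (t : F) : ℤ := if t = 0 then 1 else -1

@[simp] theorem e_zero' : e (0 : F) = 1 := by
  simp [e]

theorem e_one : e (1 : F) = -1 := by
  simp [e]

theorem e_add (hF : Fintype.card F = 2) (s t : F) : e (s + t) = e s * e t := by
  rcases two_val hF s with rfl | rfl <;> rcases two_val hF t with rfl | rfl <;>
    simp [e, one_add_one hF]

theorem e_of_ne {t : F} (h : t ≠ 0) : e t = -1 := by
  simp [e, h]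

theorem sum_e_of_ne (hF : Fintype.card F = 2) {U : Type*} [AddGroup U] [Fintype U] (φ : U →+ F) (h : ∃ u, φ u ≠ 0) :
    ∑ u, e (φ u) = 0 := by
  obtain ⟨u₀, hu₀⟩ := h
  have h1 : φ u₀ = 1 := (two_val hF _).resolve_left hu₀
  have h2 : ∑ u, e (φ u) = ∑ u, e (φ (u + u₀)) :=
    (Equiv.sum_comp (Equiv.addRight u₀) (fun u => e (φ u))).symm
  have h3 : ∑ u, e (φ (u + u₀)) = - ∑ u, e (φ u) := by
    rw [← Finset.sum_neg_distrib]
    refine Finset.sum_congr rfl fun u _ => ?_
    rw [map_add, h1, e_add hF, e_one]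
    ring
  linarith

end Field

/-- The data of a nondegenerate quadratic function over the field with two elements. -/
structure Qsp {F : Type*} [Field F] [Fintype F] {V : Type*} [AddCommGroup V] [Module F V]
    (Q : V → F) (B : V → V → F) : Prop where
  hF : Fintype.card F = 2
  hQ : ∀ x y, Q (x + y) = Q x + Q y + B x y
  hl : ∀ x y z, B (x + y) z = B x z + B y z
  hs : ∀ x y, B x y = B y x
  hnd : ∀ x, x ≠ 0 → ∃ y, B y x ≠ 0

section Forms

variable {F : Type*} [Field F] [Fintype F]
variable {V : Type*} [AddCommGroup V] [Module F V] [Finite V]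
variable {Q : V → F} {B : V → V → F}

namespace Qsp

variable (S : Qsp Q B)

include S in
theorem vec_add_self (x : V) : x + x = 0 := by
  have : ((1 : F) + 1) • x = 0 := by rw [one_add_one S.hF, zero_smul]
  rwa [add_smul, one_smul] at this

include S in
theorem B_zero_left (u : V) : B 0 u = 0 := by
  have := S.hl 0 0 u
  simpa using this

include S in
theorem B_zero_right (u : V) : B u 0 = 0 := by
  rw [S.hs]
  exact S.B_zero_left u

include S in
theorem right_add (x y z : V) : B x (y + z) = B x y + B x z := by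
  rw [S.hs, S.hl, S.hs y, S.hs z]

include S in
theorem Q_zero : Q (0 : V) = 0 := by
  have := S.hQ 0 0
  rw [add_zero, S.B_zero_left, add_zero, add_self_eq S.hF] at this
  exact this

include S in
theorem B_self (x : V) : B x x = 0 := by
  have := S.hQ x x
  rw [S.vec_add_self, S.Q_zero, add_self_eq S.hF, zero_add] at this
  exact this.symm

/-- The orthogonal complement of `U` with respect to `B`. -/
def perp (U : AddSubgroup V) : AddSubgroup V where
  carrier := {x | ∀ u ∈ U, B x u = 0}
  add_mem' := by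
    intro a b ha hb u hu
    rw [S.hl, ha u hu, hb u hu, add_zero]
  zero_mem' := by
    intro u _
    exact S.B_zero_left u
  neg_mem' := by
    intro a ha u hu
    have h1 := S.hl a (-a) u
    rw [add_neg_cancel, S.B_zero_left, ha u hu, zero_add] at h1
    exact h1.symm

theorem mem_perp {U : AddSubgroup V} {x : V} : x ∈ S.perp U ↔ ∀ u ∈ U, B x u = 0 := Iff.rfl

/-- left additive hom. -/
def leftHom (u : V) : V →+ F :=
  AddMonoidHom.mk' (fun x => B x u) (fun a b => S.hl a b u)

/-- right additive hom on a subgroup. -/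
def rightHom (U : AddSubgroup V) (x : V) : U →+ F :=
  AddMonoidHom.mk' (fun u => B x (u : V)) (fun a b => by
    rw [AddSubgroup.coe_add]
    exact S.right_add x _ _)

open Classical in
theorem sum_e_right (U : AddSubgroup V) [Fintype U] (x : V) :
    ∑ u : U, e (B x (u : V)) = if x ∈ S.perp U then (Fintype.card U : ℤ) else 0 := by
  split_ifs with h
  · have : ∀ u : U, e (B x (u : V)) = 1 := fun u => by
      rw [(S.mem_perp).mp h u u.2, e_zero']
    simp [this]
  · rw [mem_perp] at h
    push_neg at h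
    obtain ⟨u, hu, hne⟩ := h
    exact sum_e_of_ne S.hF (S.rightHom U x) ⟨⟨u, hu⟩, hne⟩

open Classical in
include S in
theorem sum_e_left [Fintype V] (u : V) :
    ∑ x : V, e (B x u) = if u = 0 then (Fintype.card V : ℤ) else 0 := by
  split_ifs with h
  · subst h
    simp [S.B_zero_right]
  · obtain ⟨y, hy⟩ := S.hnd u h
    exact sum_e_of_ne S.hF (S.leftHom u) ⟨y, hy⟩

/-- `|U| |U^⊥| = |V|`. -/
theorem card_mul_card_perp (U : AddSubgroup V) :
    Nat.card U * Nat.card (S.perp U) = Nat.card V := by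
  classical
  haveI := Fintype.ofFinite V
  haveI : Fintype U := Fintype.ofFinite U
  haveI : Fintype (S.perp U) := Fintype.ofFinite _
  have h1 : ∑ x : V, ∑ u : U, e (B x (u : V)) = ∑ u : U, ∑ x : V, e (B x (u : V)) := Finset.sum_comm
  have h2 : ∑ x : V, ∑ u : U, e (B x (u : V)) = (Fintype.card (S.perp U) : ℤ) * Fintype.card U := by
    simp_rw [S.sum_e_right U]
    rw [Finset.sum_ite, Finset.sum_const_zero, add_zero, Finset.sum_const, nsmul_eq_mul]
    congr 2
    rw [Fintype.card_subtype]
  have h3 : ∑ u : U, ∑ x : V, e (B x (u : V)) = (Fintype.card V : ℤ) := by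
    simp_rw [sum_e_left S]
    rw [Finset.sum_eq_single (0 : U)]
    · simp
    · intro b _ hb
      rw [if_neg]
      exact fun h => hb (Subtype.ext h)
    · simp
  rw [Nat.card_eq_fintype_card, Nat.card_eq_fintype_card, Nat.card_eq_fintype_card]
  have : (Fintype.card U : ℤ) * Fintype.card (S.perp U) = Fintype.card V := by
    rw [← h3, ← h1, h2, mul_comm]
  exact_mod_cast this

open Classical in
/-- The sum of `e ∘ Q` over a subgroup. -/
noncomputable def sumQ [Fintype V] (Q : V → F) (P : AddSubgroup V) : ℤ :=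
  ∑ x : V, if x ∈ P then e (Q x) else 0

/-- Translation by an isotropic subgroup: the sum over the perp equals the total sum. -/
theorem sumQ_perp [Fintype V] (U : AddSubgroup V) (hU : ∀ u ∈ U, Q u = 0) :
    sumQ Q (S.perp U) = sumQ Q ⊤ := by
  classical
  haveI : Fintype U := Fintype.ofFinite U
  have hT : sumQ Q ⊤ = ∑ x : V, e (Q x) := by
    simp [sumQ]
  have h1 : ∀ u : U, ∑ x : V, e (Q x) = ∑ x : V, e (Q x) * e (B x (u : V)) := by
    intro u
    rw [← Equiv.sum_comp (Equiv.addRight (u : V)) (fun x => e (Q x))]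
    refine Finset.sum_congr rfl fun x _ => ?_
    simp only [Equiv.coe_addRight]
    rw [S.hQ, hU u u.2, add_zero, e_add S.hF]
  have h2 : (Fintype.card U : ℤ) * ∑ x : V, e (Q x) = ∑ u : U, ∑ x : V, e (Q x) * e (B x (u : V)) := by
    simp_rw [← h1]
    simp
  have h3 : ∑ u : U, ∑ x : V, e (Q x) * e (B x (u : V)) = ∑ x : V, e (Q x) * ∑ u : U, e (B x (u : V)) := by
    rw [Finset.sum_comm]
    refine Finset.sum_congr rfl fun x _ => ?_
    rw [Finset.mul_sum]
  have h4 : ∑ x : V, e (Q x) * ∑ u : U, e (B x (u : V)) = (Fintype.card U : ℤ) * sumQ Q (S.perp U) := by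
    rw [sumQ, Finset.mul_sum]
    refine Finset.sum_congr rfl fun x _ => ?_
    rw [S.sum_e_right U]
    split_ifs <;> ring
  have hpos : (Fintype.card U : ℤ) ≠ 0 := by
    exact_mod_cast Fintype.card_ne_zero
  rw [hT]
  apply mul_left_cancel₀ hpos
  rw [← h4, ← h3, ← h2]

include S in
/-- Counting singular and nonsingular vectors in a subgroup. -/
theorem sumQ_eq [Fintype V] (P : AddSubgroup V) :
    sumQ Q P = (Nat.card {x : V // x ∈ P ∧ Q x = 0} : ℤ) - Nat.card {x : V // x ∈ P ∧ Q x ≠ 0} := by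
  classical
  rw [Nat.card_eq_fintype_card, Nat.card_eq_fintype_card, Fintype.card_subtype, Fintype.card_subtype]
  rw [Finset.card_filter, Finset.card_filter, sumQ]
  push_cast
  rw [← Finset.sum_sub_distrib]
  refine Finset.sum_congr rfl fun x _ => ?_
  by_cases h : x ∈ P
  · by_cases h' : Q x = 0
    · simp [h, h']
    · simp [h, h', e_of_ne h']
  · simp [h]

theorem card_split (P : AddSubgroup V) :
    Nat.card {x : V // x ∈ P ∧ Q x = 0} + Nat.card {x : V // x ∈ P ∧ Q x ≠ 0} = Nat.card P := by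
  classical
  haveI := Fintype.ofFinite V
  have h1 : Nat.card P = Nat.card {x : V // x ∈ P} := rfl
  rw [h1, Nat.card_eq_fintype_card, Nat.card_eq_fintype_card, Nat.card_eq_fintype_card,
    Fintype.card_subtype, Fintype.card_subtype, Fintype.card_subtype]
  rw [← Finset.filter_filter, ← Finset.filter_filter]
  exact Finset.card_filter_add_card_filter_not _

/-- Count of singular vectors in the perp of an isotropic subgroup of a plus-type space:
`2 a = |U^⊥| + 2^m`. -/
theorem counts {m : ℕ} (hV : Nat.card V = 2 ^ (2 * m))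
    (hN : (Nat.card {x : V // Q x = 0} : ℤ) * 2 = 2 ^ (2 * m) + 2 ^ m)
    (U : AddSubgroup V) (hU : ∀ u ∈ U, Q u = 0) :
    (Nat.card {x : V // x ∈ S.perp U ∧ Q x = 0} : ℤ) * 2 = Nat.card (S.perp U) + 2 ^ m ∧
    (Nat.card {x : V // x ∈ S.perp U ∧ Q x ≠ 0} : ℤ) * 2 + 2 ^ m = Nat.card (S.perp U) := by
  classical
  haveI := Fintype.ofFinite V
  have h1 := S.sumQ_perp U hU
  rw [sumQ_eq S, sumQ_eq S] at h1
  have h2 := card_split (Q := Q) (S.perp U)
  have h3 := card_split (Q := Q) (⊤ : AddSubgroup V)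
  have h4 : Nat.card (⊤ : AddSubgroup V) = 2 ^ (2 * m) := by
    rw [AddSubgroup.card_top, hV]
  have e1 : Nat.card {x : V // x ∈ (⊤ : AddSubgroup V) ∧ Q x = 0} = Nat.card {x : V // Q x = 0} :=
    Nat.card_congr (Equiv.subtypeEquivRight (by simp))
  rw [e1] at h1 h3
  rw [h4] at h3
  have h2' : (Nat.card {x : V // x ∈ S.perp U ∧ Q x = 0} : ℤ) + Nat.card {x : V // x ∈ S.perp U ∧ Q x ≠ 0} =
      Nat.card (S.perp U) := by exact_mod_cast h2
  have h3' : (Nat.card {x : V // Q x = 0} : ℤ) + Nat.card {x : V // x ∈ (⊤ : AddSubgroup V) ∧ Q x ≠ 0} =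
      2 ^ (2 * m) := by exact_mod_cast h3
  constructor <;> linarith

end Qsp

end Forms

section Action

variable {F : Type*} [Field F] [Fintype F]
variable {V : Type*} [AddCommGroup V] [Module F V] [Finite V]
variable {Q : V → F} {B : V → V → F}
variable {G : Type*} [Group G] [DistribMulAction G V]

namespace Qsp

variable (S : Qsp Q B)

include S in
/-- Isometries preserve `B`. -/
theorem B_smul (hisom : ∀ (g : G) (x : V), Q (g • x) = Q x) (g : G) (x y : V) :
    B (g • x) (g • y) = B x y := by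
  have h1 := S.hQ (g • x) (g • y)
  rw [← smul_add, hisom, hisom, hisom, S.hQ] at h1
  exact (add_left_cancel h1).symm

include S in
theorem neg_eq (x : V) : -x = x := neg_eq_of_add_eq_zero_left (S.vec_add_self x)

include S in
/-- The odd order lemma: if `g` has odd order, fixes `v` and moves `y` to `y + v`, then `v = 0`. -/
theorem eq_zero_of_odd {g : G} (hg : Odd (orderOf g)) {y v : V} (hv : g • v = v) (hy : g • y = y + v) :
    v = 0 := by
  have h1 : ∀ k : ℕ, g ^ k • y = y + k • v := by
    intro k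
    induction k with
    | zero => simp
    | succ n ih =>
      have h2 : g • (n • v) = n • (g • v) := map_nsmul (DistribSMul.toAddMonoidHom V g) n v
      rw [pow_succ', mul_smul, ih, smul_add, hy, h2, hv, succ_nsmul]
      abel
  have h3 := h1 (orderOf g)
  rw [pow_orderOf_eq_one, one_smul] at h3
  obtain ⟨l, hl⟩ := hg
  have h4 : (orderOf g) • v = 0 := by
    have := congrArg (fun z => -y + z) h3
    simpa using this.symm
  rw [hl, succ_nsmul, mul_nsmul', two_nsmul, S.vec_add_self, zero_add] at h4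
  exact h4

include S in
theorem fixed_of_odd {g : G} (hg : Odd (orderOf g)) {y v : V} (hv : g • v = v) (hy : g • y + y = v) :
    g • y = y := by
  have h1 : g • y = y + v := by
    rw [← hy, add_comm (g • y), ← add_assoc, S.vec_add_self, zero_add]
  have h2 := S.eq_zero_of_odd hg hv h1
  rw [h1, h2, add_zero]

/-- The subgroup `U ∪ (x + U)`. -/
def ext (U : AddSubgroup V) (x : V) : AddSubgroup V where
  carrier := {y | y ∈ U ∨ y + x ∈ U}
  add_mem' := by
    rintro a b (ha | ha) (hb | hb)
    · exact Or.inl (U.add_mem ha hb)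
    · right
      have := U.add_mem ha hb
      rwa [← add_assoc] at this
    · right
      have := U.add_mem ha hb
      rwa [add_right_comm] at this
    · left
      have := U.add_mem ha hb
      have e1 : a + x + (b + x) = a + b + (x + x) := by abel
      rwa [e1, S.vec_add_self, add_zero] at this
  zero_mem' := Or.inl U.zero_mem
  neg_mem' := by
    intro a ha
    show -a ∈ U ∨ -a + x ∈ U
    rwa [S.neg_eq a]

theorem mem_ext {U : AddSubgroup V} {x y : V} : y ∈ S.ext U x ↔ y ∈ U ∨ y + x ∈ U := Iff.rfl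

theorem le_ext (U : AddSubgroup V) (x : V) : U ≤ S.ext U x := fun _ hy => Or.inl hy

theorem self_mem_ext (U : AddSubgroup V) (x : V) : x ∈ S.ext U x :=
  Or.inr (by rw [S.vec_add_self]; exact U.zero_mem)

theorem card_ext {U : AddSubgroup V} {x : V} (hx : x ∉ U) : Nat.card (S.ext U x) = 2 * Nat.card U := by
  classical
  have e1 : ((S.ext U x : AddSubgroup V) : Set V) = (U : Set V) ∪ (fun z => z + x) '' (U : Set V) := by
    ext y
    constructor
    · rintro (h | h)
      · exact Or.inl h
      · right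
        refine ⟨y + x, h, ?_⟩
        show y + x + x = y
        rw [add_assoc, S.vec_add_self, add_zero]
    · rintro (h | ⟨z, hz, rfl⟩)
      · exact Or.inl h
      · right
        show z + x + x ∈ U
        rw [add_assoc, S.vec_add_self, add_zero]
        exact hz
  have hd : Disjoint (U : Set V) ((fun z => z + x) '' (U : Set V)) := by
    rw [Set.disjoint_left]
    rintro y hy ⟨z, hz, rfl⟩
    apply hx
    have := U.add_mem hy hz
    have e2 : z + x + z = x + (z + z) := by abel
    rwa [e2, S.vec_add_self, add_zero] at this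
  have hinj : Function.Injective (fun z : V => z + x) := add_left_injective x
  have h1 : Nat.card (S.ext U x) = ((S.ext U x : AddSubgroup V) : Set V).ncard := (Nat.card_coe_set_eq _)
  have h2 : Nat.card U = (U : Set V).ncard := (Nat.card_coe_set_eq _)
  rw [h1, h2, e1, Set.ncard_union_eq hd (Set.toFinite _) (Set.toFinite _), Set.ncard_image_of_injective _ hinj]
  ring

/-- An isotropic subgroup lies in its perp. -/
theorem le_perp {U : AddSubgroup V} (hU : ∀ u ∈ U, Q u = 0) : U ≤ S.perp U := by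
  intro a ha b hb
  have h1 := S.hQ a b
  rw [hU _ (U.add_mem ha hb), hU a ha, hU b hb, zero_add, zero_add] at h1
  exact h1.symm

/-- `Q` on `x + U` for `x` in the perp. -/
theorem Q_add_of_perp {U : AddSubgroup V} (hU : ∀ u ∈ U, Q u = 0) {x u : V} (hx : x ∈ S.perp U) (hu : u ∈ U) :
    Q (x + u) = Q x := by
  rw [S.hQ, hU u hu, hx u hu, add_zero, add_zero]

theorem ext_isotropic {U : AddSubgroup V} (hU : ∀ u ∈ U, Q u = 0) {x : V} (hx : x ∈ S.perp U) (hQx : Q x = 0) :
    ∀ y ∈ S.ext U x, Q y = 0 := by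
  rintro y (h | h)
  · exact hU y h
  · have e1 : y = x + (y + x) := by
      rw [add_comm y x, ← add_assoc, S.vec_add_self, zero_add]
    rw [e1, S.Q_add_of_perp hU hx h, hQx]

/-- Isometries stabilizing `U` stabilize its perp. -/
theorem smul_mem_perp (hisom : ∀ (g : G) (x : V), Q (g • x) = Q x) {U : AddSubgroup V} {g : G}
    (hg : ∀ u ∈ U, g⁻¹ • u ∈ U) {x : V} (hx : x ∈ S.perp U) : g • x ∈ S.perp U := by
  intro u hu
  have h1 := S.B_smul hisom g x (g⁻¹ • u)
  rw [smul_inv_smul] at h1
  rw [h1]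
  exact hx _ (hg u hu)

/-- The action on the quotient. -/
@[reducible] noncomputable def quotAct (H : Subgroup G) (U : AddSubgroup V) (hUH : ∀ h ∈ H, ∀ u ∈ U, h • u ∈ U) :
    MulAction H (V ⧸ U) where
  smul h q := QuotientAddGroup.map U U (DistribSMul.toAddMonoidHom V (h : G)) (fun u hu => hUH h h.2 u hu) q
  one_smul q := by
    induction q using QuotientAddGroup.induction_on with
    | H x =>
      show ((((1 : H) : G) • x : V) : V ⧸ U) = (x : V ⧸ U)
      rw [Subgroup.coe_one, one_smul]
  mul_smul a b q := by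
    induction q using QuotientAddGroup.induction_on with
    | H x =>
      show ((((a * b : H) : G) • x : V) : V ⧸ U) = (((a : G) • ((b : G) • x) : V) : V ⧸ U)
      rw [Subgroup.coe_mul, mul_smul]

/-- Parity: an `H`-invariant singular coset exists. -/
theorem exists_fixed_coset [Finite G] (hisom : ∀ (g : G) (x : V), Q (g • x) = Q x)
    {m d k : ℕ} (hm : m = d + k + 1) (hk : 1 ≤ k)
    (hV : Nat.card V = 2 ^ (2 * m))
    (hN : (Nat.card {x : V // Q x = 0} : ℤ) * 2 = 2 ^ (2 * m) + 2 ^ m)
    (H : Subgroup G) (hH : IsPGroup 2 H) (U : AddSubgroup V) (hU : ∀ u ∈ U, Q u = 0)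
    (hUH : ∀ h ∈ H, ∀ u ∈ U, h • u ∈ U) (hd : Nat.card U = 2 ^ d) :
    ∃ x, x ∈ S.perp U ∧ x ∉ U ∧ Q x = 0 ∧ ∀ h ∈ H, h • x + x ∈ U := by
  classical
  haveI := Fintype.ofFinite V
  letI := quotAct H U hUH
  have hact : ∀ (h : H) (x : V), h • (x : V ⧸ U) = ((h : G) • x : V) := fun h x => rfl
  let X : SubMulAction H (V ⧸ U) :=
    { carrier := {q | q ≠ 0 ∧ ∃ x : V, (x : V ⧸ U) = q ∧ x ∈ S.perp U ∧ Q x = 0}
      smul_mem' := by
        rintro h q ⟨hq, x, rfl, hx, hQx⟩
        have hinv : ∀ u ∈ U, (h : G)⁻¹ • u ∈ U := fun u hu => hUH _ (H.inv_mem h.2) u hu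
        refine ⟨?_, (h : G) • x, hact h x, S.smul_mem_perp hisom hinv hx, by rw [hisom, hQx]⟩
        rw [hact]
        intro h0
        apply hq
        rw [QuotientAddGroup.eq_zero_iff] at h0 ⊢
        have := hinv _ h0
        rwa [inv_smul_smul] at this }
  -- points
  have hpre : (QuotientAddGroup.mk ⁻¹' (X : Set (V ⧸ U)) : Set V) = {x | x ∉ U ∧ x ∈ S.perp U ∧ Q x = 0} := by
    ext x
    constructor
    · rintro ⟨h0, x', hx', hp, hq⟩
      have h1 : x ∉ U := fun h => h0 ((QuotientAddGroup.eq_zero_iff x).mpr h)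
      rw [QuotientAddGroup.eq] at hx'
      have h2 : x = x' + (-x' + x) := by abel
      refine ⟨h1, ?_, ?_⟩
      · rw [h2]
        exact (S.perp U).add_mem hp (S.le_perp hU hx')
      · rw [h2, S.Q_add_of_perp hU hp hx', hq]
    · rintro ⟨h1, h2, h3⟩
      exact ⟨fun h0 => h1 ((QuotientAddGroup.eq_zero_iff x).mp h0), x, rfl, h2, h3⟩
  have hcard1 : Nat.card {x : V // x ∉ U ∧ x ∈ S.perp U ∧ Q x = 0} = Nat.card U * Nat.card X := by
    have e1 : Nat.card {x : V // x ∉ U ∧ x ∈ S.perp U ∧ Q x = 0} =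
        Nat.card (QuotientAddGroup.mk ⁻¹' (X : Set (V ⧸ U)) : Set V) := by
      rw [hpre]
      rfl
    rw [e1, Nat.card_congr (QuotientAddGroup.preimageMkEquivAddSubgroupProdSet U (X : Set (V ⧸ U))),
      Nat.card_prod]
    rfl
  have hsplit : Nat.card {x : V // x ∈ S.perp U ∧ Q x = 0} =
      Nat.card U + Nat.card {x : V // x ∉ U ∧ x ∈ S.perp U ∧ Q x = 0} := by
    have h1 : Nat.card U = Nat.card {x : V // x ∈ U} := rfl
    rw [h1, Nat.card_eq_fintype_card, Nat.card_eq_fintype_card, Nat.card_eq_fintype_card,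
      Fintype.card_subtype, Fintype.card_subtype, Fintype.card_subtype]
    have h2 : (Finset.univ.filter fun x : V => x ∈ U) =
        ((Finset.univ.filter fun x : V => x ∈ S.perp U ∧ Q x = 0).filter fun x => x ∈ U) := by
      ext x
      simp only [Finset.mem_filter, Finset.mem_univ, true_and]
      exact ⟨fun h => ⟨⟨S.le_perp hU h, hU x h⟩, h⟩, fun h => h.2⟩
    have h3 : (Finset.univ.filter fun x : V => x ∉ U ∧ x ∈ S.perp U ∧ Q x = 0) =
        ((Finset.univ.filter fun x : V => x ∈ S.perp U ∧ Q x = 0).filter fun x => ¬ x ∈ U) := by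
      ext x
      simp only [Finset.mem_filter, Finset.mem_univ, true_and]
      tauto
    rw [h2, h3, Finset.card_filter_add_card_filter_not]
  obtain ⟨hc1, -⟩ := S.counts hV hN U hU
  have hperp : Nat.card U * Nat.card (S.perp U) = 2 ^ (2 * m) := by
    rw [S.card_mul_card_perp, hV]
  subst hm
  rw [hd] at hperp hsplit hcard1
  have hperp' : Nat.card (S.perp U) = 2 ^ (d + 2 * k + 2) := by
    have e : 2 * (d + k + 1) = d + (d + 2 * k + 2) := by ring
    rw [e, pow_add] at hperp
    exact Nat.eq_of_mul_eq_mul_left (by positivity) hperp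
  rw [hperp'] at hc1
  have ha : Nat.card {x : V // x ∈ S.perp U ∧ Q x = 0} = 2 ^ d * (2 ^ (2 * k + 1) + 2 ^ k) := by
    have e : ((Nat.card {x : V // x ∈ S.perp U ∧ Q x = 0} : ℕ) : ℤ) * 2 = (((2 ^ d * (2 ^ (2 * k + 1) + 2 ^ k) : ℕ)) : ℤ) * 2 := by
      rw [hc1]
      push_cast
      ring
    have := mul_right_cancel₀ (by norm_num : (2 : ℤ) ≠ 0) e
    exact_mod_cast this
  have hX : Nat.card X + 1 = 2 ^ (2 * k + 1) + 2 ^ k := by
    rw [ha, hcard1] at hsplit
    have h2 : 2 ^ d * (2 ^ (2 * k + 1) + 2 ^ k) = 2 ^ d * (Nat.card X + 1) := by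
      rw [hsplit]
      ring
    exact (Nat.eq_of_mul_eq_mul_left (by positivity) h2).symm
  have hodd : ¬ 2 ∣ Nat.card X := by
    obtain ⟨j, rfl⟩ : ∃ j, k = j + 1 := ⟨k - 1, by omega⟩
    have e1 : 2 ^ (2 * (j + 1) + 1) + 2 ^ (j + 1) = 2 * (2 ^ (2 * (j + 1)) + 2 ^ j) := by ring
    rw [e1] at hX
    omega
  obtain ⟨q, hq⟩ := hH.nonempty_fixed_point_of_prime_not_dvd_card X hodd
  rcases q with ⟨q, hq0, x, rfl, hx, hQx⟩
  refine ⟨x, hx, fun h => hq0 ((QuotientAddGroup.eq_zero_iff x).mpr h), hQx, fun h hh => ?_⟩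
  have h1 := hq ⟨h, hh⟩
  have h2 : ((h • x : V) : V ⧸ U) = (x : V ⧸ U) := congrArg Subtype.val h1
  rw [QuotientAddGroup.eq, S.neg_eq, add_comm] at h2
  rwa [add_comm]

/-- The stabilizer of a subgroup. -/
def stab (U : AddSubgroup V) : Subgroup G where
  carrier := {g | ∀ y, g • y ∈ U ↔ y ∈ U}
  mul_mem' := by
    intro a b ha hb y
    rw [mul_smul, ha, hb]
  one_mem' := by
    intro y
    rw [one_smul]
  inv_mem' := by
    intro a ha y
    rw [← ha (a⁻¹ • y), smul_inv_smul]

theorem mem_stab {U : AddSubgroup V} {g : G} : g ∈ stab (G := G) U ↔ ∀ y, g • y ∈ U ↔ y ∈ U := Iff.rfl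

/-- A chain of isotropic subgroups fixed by `H`, with its stabilizer-type subgroup `S`. -/
def ChainAt (Q : V → F) (H : Subgroup G) (d : ℕ) : Prop :=
  ∃ (U : AddSubgroup V) (T : Subgroup G),
    (∀ u ∈ U, Q u = 0) ∧ Nat.card U = 2 ^ d ∧ H ≤ T ∧ (∀ g ∈ T, ∀ y, g • y ∈ U ↔ y ∈ U) ∧
    (∀ g ∈ T, Odd (orderOf g) → ∀ u ∈ U, g • u = u) ∧ (∀ t : G, (∀ u ∈ U, t • u = u) → t ∈ T)

include S in
theorem chain_zero (H : Subgroup G) : ChainAt Q H 0 := by
  refine ⟨⊥, ⊤, ?_, ?_, le_top, ?_, ?_, fun _ _ => Subgroup.mem_top _⟩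
  · intro u hu
    rw [AddSubgroup.mem_bot.mp hu]
    exact S.Q_zero
  · simp
  · intro g _ y
    rw [AddSubgroup.mem_bot, AddSubgroup.mem_bot]
    exact smul_eq_zero_iff_eq g
  · intro g _ _ u hu
    rw [AddSubgroup.mem_bot.mp hu, smul_zero]

include S in
theorem chain_succ [Finite G] (hisom : ∀ (g : G) (x : V), Q (g • x) = Q x)
    {m d k : ℕ} (hm : m = d + k + 1) (hk : 1 ≤ k)
    (hV : Nat.card V = 2 ^ (2 * m))
    (hN : (Nat.card {x : V // Q x = 0} : ℤ) * 2 = 2 ^ (2 * m) + 2 ^ m)
    {H : Subgroup G} (hH : IsPGroup 2 H) (hc : ChainAt Q H d) : ChainAt Q H (d + 1) := by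
  obtain ⟨U, T, hU, hd', hHT, hTst, hTodd, hTall⟩ := hc
  have hUH : ∀ h ∈ H, ∀ u ∈ U, h • u ∈ U := fun h hh u hu => (hTst h (hHT hh) u).mpr hu
  obtain ⟨x, hxp, hxU, hQx, hxH⟩ := S.exists_fixed_coset hisom hm hk hV hN H hH U hU hUH hd'
  have hfw : ∀ h ∈ H, ∀ y ∈ S.ext U x, h • y ∈ S.ext U x := by
    rintro h hh y (hy | hy)
    · exact Or.inl (hUH h hh y hy)
    · right
      have h1 := U.add_mem (hUH h hh _ hy) (hxH h hh)
      have e1 : h • (y + x) + (h • x + x) = h • y + x + (h • x + h • x) := by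
        rw [smul_add]
        abel
      rwa [e1, S.vec_add_self, add_zero] at h1
  have hstabH : ∀ h ∈ H, h ∈ stab (G := G) (S.ext U x) := by
    intro h hh y
    refine ⟨fun hy => ?_, hfw h hh y⟩
    have := hfw h⁻¹ (H.inv_mem hh) _ hy
    rwa [inv_smul_smul] at this
  refine ⟨S.ext U x, T ⊓ stab (S.ext U x), S.ext_isotropic hU hxp hQx, ?_, le_inf hHT hstabH, ?_, ?_, ?_⟩
  · rw [S.card_ext hxU, hd', pow_succ]
    ring
  · intro g hg y
    exact hg.2 y
  · intro g hg hodd y hy
    have hfix := hTodd g hg.1 hodd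
    have h1 : g • x + x ∈ U := by
      rcases hg.2 x |>.mpr (S.self_mem_ext U x) with h | h
      · exact absurd ((hTst g hg.1 x).mp h) hxU
      · exact h
    have h2 : g • x = x := S.fixed_of_odd hodd (hfix _ h1) rfl
    rcases hy with hy | hy
    · exact hfix y hy
    · have h3 := hfix _ hy
      rw [smul_add, h2] at h3
      exact add_right_cancel h3
  · intro t ht
    refine ⟨hTall t fun u hu => ht u (S.le_ext U x hu), ?_⟩
    intro y
    refine ⟨fun hy => ?_, fun hy => by rw [ht y hy]; exact hy⟩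
    have h1 := ht _ hy
    have h2 : t • y = y := smul_left_cancel t h1
    rwa [h2] at hy

include S in
theorem chain_all [Finite G] (hisom : ∀ (g : G) (x : V), Q (g • x) = Q x)
    {m : ℕ} (hV : Nat.card V = 2 ^ (2 * m))
    (hN : (Nat.card {x : V // Q x = 0} : ℤ) * 2 = 2 ^ (2 * m) + 2 ^ m)
    {H : Subgroup G} (hH : IsPGroup 2 H) (d : ℕ) (hd : d + 1 ≤ m) : ChainAt Q H d := by
  induction d with
  | zero => exact S.chain_zero H
  | succ n ih =>
    have h1 := ih (by omega)
    exact S.chain_succ hisom (m := m) (d := n) (k := m - n - 1) (by omega) (by omega) hV hN hH h1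

include S in
theorem odd_eq_one [Finite G] (hisom : ∀ (g : G) (x : V), Q (g • x) = Q x)
    (hfaith : ∀ g : G, (∀ x : V, g • x = x) → g = 1)
    {m : ℕ} (hm : 1 ≤ m) (hV : Nat.card V = 2 ^ (2 * m))
    (hN : (Nat.card {x : V // Q x = 0} : ℤ) * 2 = 2 ^ (2 * m) + 2 ^ m)
    {U : AddSubgroup V} (hU : ∀ u ∈ U, Q u = 0) (hd : Nat.card U = 2 ^ (m - 1))
    {g : G} (hst : ∀ y, g • y ∈ U ↔ y ∈ U) (hodd : Odd (orderOf g)) (hfix : ∀ u ∈ U, g • u = u) : g = 1 := by
  classical
  haveI := Fintype.ofFinite V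
  obtain ⟨n, rfl⟩ : ∃ n, m = n + 1 := ⟨m - 1, by omega⟩
  simp only [Nat.add_sub_cancel] at hd
  have hpow2 : (0 : ℕ) < 2 ^ n := by positivity
  -- size of the perp
  have hperp : Nat.card (S.perp U) = 2 ^ (n + 2) := by
    have h1 := S.card_mul_card_perp U
    rw [hd, hV] at h1
    have e : 2 * (n + 1) = n + (n + 2) := by ring
    rw [e, pow_add] at h1
    exact Nat.eq_of_mul_eq_mul_left hpow2 h1
  obtain ⟨-, hc2⟩ := S.counts hV hN U hU
  rw [hperp] at hc2
  have hb : Nat.card {x : V // x ∈ S.perp U ∧ Q x ≠ 0} = 2 ^ n := by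
    have e : ((Nat.card {x : V // x ∈ S.perp U ∧ Q x ≠ 0} : ℕ) : ℤ) * 2 = ((2 ^ n : ℕ) : ℤ) * 2 := by
      have e2 : (2 : ℤ) ^ (n + 2) = 2 * 2 ^ (n + 1) := by ring
      push_cast at hc2 ⊢
      rw [e2] at hc2
      have e3 : (2 : ℤ) ^ (n + 1) = 2 ^ n * 2 := by ring
      rw [e3] at hc2
      linarith
    exact_mod_cast mul_right_cancel₀ (by norm_num : (2 : ℤ) ≠ 0) e
  have hinv : ∀ u ∈ U, g⁻¹ • u ∈ U := fun u hu => by
    rw [← hst, smul_inv_smul]
    exact hu
  -- a nonsingular vector
  have hne : Nonempty {x : V // x ∈ S.perp U ∧ Q x ≠ 0} := by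
    apply (Nat.card_pos_iff.mp _).1
    rw [hb]
    exact hpow2
  obtain ⟨⟨z, hzp, hQz⟩⟩ := hne
  -- the nonsingular vectors form one coset
  let f : U → {x : V // x ∈ S.perp U ∧ Q x ≠ 0} := fun u =>
    ⟨z + u, (S.perp U).add_mem hzp (S.le_perp hU u.2), by rw [S.Q_add_of_perp hU hzp u.2]; exact hQz⟩
  have hfinj : Function.Injective f := by
    intro a b hab
    have := congrArg Subtype.val hab
    exact Subtype.ext (add_left_cancel this)
  have hfbij : Function.Bijective f := by
    rw [Nat.bijective_iff_injective_and_card]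
    exact ⟨hfinj, by rw [hb, hd]⟩
  have hgz : g • z + z ∈ U := by
    obtain ⟨u, hu⟩ := hfbij.2 ⟨g • z, S.smul_mem_perp hisom hinv hzp, by rw [hisom]; exact hQz⟩
    have h1 : z + (u : V) = g • z := congrArg Subtype.val hu
    rw [← h1]
    have e : z + (u : V) + z = (u : V) + (z + z) := by abel
    rw [e, S.vec_add_self, add_zero]
    exact u.2
  have hgz' : g • z = z := S.fixed_of_odd hodd (hfix _ hgz) rfl
  have hzU : z ∉ U := fun h => hQz (hU z h)
  -- `g` fixes `U₊` pointwise
  have hfixp : ∀ y ∈ S.ext U z, g • y = y := by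
    rintro y (hy | hy)
    · exact hfix y hy
    · have h3 := hfix _ hy
      rw [smul_add, hgz'] at h3
      exact add_right_cancel h3
  have hUpP : S.ext U z ≤ S.perp U := by
    rintro y (hy | hy)
    · exact S.le_perp hU hy
    · have e : y = (y + z) + z := by
        rw [add_assoc, S.vec_add_self, add_zero]
      rw [e]
      exact (S.perp U).add_mem (S.le_perp hU hy) hzp
  have hUpcard : Nat.card (S.ext U z) = 2 ^ (n + 1) := by
    rw [S.card_ext hzU, hd, pow_succ]
    ring
  -- `g` fixes the perp pointwise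
  have hfixP : ∀ x ∈ S.perp U, g • x = x := by
    intro x hx
    by_cases hxU : x ∈ S.ext U z
    · exact hfixp x hxU
    · have hle : S.ext (S.ext U z) x ≤ S.perp U := by
        rintro y (hy | hy)
        · exact hUpP hy
        · have e : y = (y + x) + x := by
            rw [add_assoc, S.vec_add_self, add_zero]
          rw [e]
          exact (S.perp U).add_mem (hUpP hy) hx
      have heq : S.ext (S.ext U z) x = S.perp U := by
        apply AddSubgroup.eq_of_le_of_card_ge hle
        rw [hperp, S.card_ext hxU, hUpcard, pow_succ]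
        omega
      have h1 : g • x ∈ S.ext (S.ext U z) x := by
        rw [heq]
        exact S.smul_mem_perp hisom hinv hx
      rcases h1 with h1 | h1
      · exfalso
        have h2 := hfixp _ h1
        have h3 : g • x = x := smul_left_cancel g h2
        rw [h3] at h1
        exact hxU h1
      · exact S.fixed_of_odd hodd (hfixp _ h1) rfl
  -- the double perp
  have hUpp : S.perp (S.perp U) = U := by
    symm
    apply AddSubgroup.eq_of_le_of_card_ge
    · intro u hu p hp
      rw [S.hs]
      exact hp u hu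
    · have h1 := S.card_mul_card_perp (S.perp U)
      rw [hperp, hV] at h1
      have e : (2 : ℕ) ^ (2 * (n + 1)) = 2 ^ (n + 2) * 2 ^ n := by
        rw [← pow_add]
        congr 1
        ring
      rw [e] at h1
      rw [hd]
      exact (Nat.eq_of_mul_eq_mul_left (by positivity) h1).le
  apply hfaith
  intro y
  have h1 : g • y + y ∈ S.perp (S.perp U) := by
    intro p hp
    rw [S.hl]
    have h2 := S.B_smul hisom g y p
    rw [hfixP p hp] at h2
    rw [h2, add_self_eq S.hF]
  rw [hUpp] at h1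
  exact S.fixed_of_odd hodd (hfix _ h1) rfl

include S in
theorem B_csmul (c : F) (x y : V) : B x (c • y) = c * B x y := by
  rcases two_val S.hF c with rfl | rfl
  · rw [zero_smul, zero_mul, S.B_zero_right]
  · rw [one_smul, one_mul]

/-- The transvection. -/
noncomputable def transv (v : V) : V →+ V :=
  AddMonoidHom.mk' (fun y => y + (B y v) • v) (fun a b => by
    rw [S.hl, add_smul]
    abel)

theorem transv_apply (v y : V) : S.transv v y = y + (B y v) • v := rfl

/-- The Siegel transformation. -/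
noncomputable def siegel (a b : V) : V →+ V :=
  AddMonoidHom.mk' (fun y => y + (B y a) • b + (B y b) • a) (fun x y => by
    rw [S.hl, S.hl, add_smul, add_smul]
    abel)

theorem siegel_apply (a b y : V) : S.siegel a b y = y + (B y a) • b + (B y b) • a := rfl

theorem transv_invol {v : V} (y : V) : S.transv v (S.transv v y) = y := by
  rw [transv_apply, transv_apply, S.hl, S.hs (_ • v) v, S.B_csmul, S.B_self, mul_zero, add_zero, add_assoc,
    ← add_smul, add_self_eq S.hF, zero_smul, add_zero]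

theorem transv_isom {v : V} (hv : Q v ≠ 0) (y : V) : Q (S.transv v y) = Q y := by
  rw [transv_apply]
  have hv1 : Q v = 1 := (two_val S.hF _).resolve_left hv
  rcases two_val S.hF (B y v) with h | h
  · rw [h, zero_smul, add_zero]
  · rw [h, one_smul, S.hQ, h, hv1, add_assoc, one_add_one S.hF, add_zero]

theorem siegel_invol {a b : V} (ha : B a a = 0) (hb : B b b = 0) (hab : B a b = 0) (y : V) :
    S.siegel a b (S.siegel a b y) = y := by
  have hba : B b a = 0 := by rw [S.hs]; exact hab
  have h1 : B (y + (B y a) • b + (B y b) • a) a = B y a := by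
    rw [S.hl, S.hl, S.hs (_ • b) a, S.hs (_ • a) a, S.B_csmul, S.B_csmul, hab, ha, mul_zero, mul_zero,
      add_zero, add_zero]
  have h2 : B (y + (B y a) • b + (B y b) • a) b = B y b := by
    rw [S.hl, S.hl, S.hs (_ • b) b, S.hs (_ • a) b, S.B_csmul, S.B_csmul, hb, hba, mul_zero, mul_zero,
      add_zero, add_zero]
  rw [siegel_apply, siegel_apply, h1, h2]
  have e : y + (B y a) • b + (B y b) • a + (B y a) • b + (B y b) • a =
      y + ((B y a) • b + (B y a) • b) + ((B y b) • a + (B y b) • a) := by abel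
  rw [e, S.vec_add_self, S.vec_add_self, add_zero, add_zero]

theorem siegel_isom {a b : V} (ha : Q a = 0) (hb : Q b = 0) (hab : B a b = 0) (y : V) :
    Q (S.siegel a b y) = Q y := by
  rw [siegel_apply]
  rcases two_val S.hF (B y a) with h1 | h1 <;> rcases two_val S.hF (B y b) with h2 | h2
  · rw [h1, h2, zero_smul, zero_smul, add_zero, add_zero]
  · rw [h1, h2, zero_smul, one_smul, add_zero, S.hQ, ha, h1, add_zero, add_zero]
  · rw [h1, h2, zero_smul, one_smul, add_zero, S.hQ, hb, h2, add_zero, add_zero]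
  · rw [h1, h2, one_smul, one_smul, S.hQ, S.hQ, ha, hb, S.hl, h1, S.hs b a, hab, h2, add_zero, add_zero, add_zero,
      add_assoc, one_add_one S.hF, add_zero]

include S in
/-- A nontrivial isometry fixing `W` pointwise, if the perp of `W` has at least three elements. -/
theorem exists_fix [Finite G]
    (hfaith : ∀ g : G, (∀ x : V, g • x = x) → g = 1)
    (hsurj : ∀ t : V →+ V, (∀ x, t (t x) = x) → (∀ x, Q (t x) = Q x) → ∃ g : G, ∀ x, g • x = t x)
    (W : AddSubgroup V) (hW : 2 < Nat.card (S.perp W)) :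
    ∃ t : G, t ≠ 1 ∧ ∀ w ∈ W, t • w = w := by
  classical
  by_cases hv : ∃ v ∈ S.perp W, Q v ≠ 0
  · obtain ⟨v, hvW, hQv⟩ := hv
    obtain ⟨g, hg⟩ := hsurj (S.transv v) S.transv_invol (S.transv_isom hQv)
    refine ⟨g, ?_, ?_⟩
    · rintro rfl
      have hv0 : v ≠ 0 := by
        rintro rfl
        exact hQv S.Q_zero
      obtain ⟨y, hy⟩ := S.hnd v hv0
      have h1 := hg y
      rw [one_smul, transv_apply, (two_val S.hF _).resolve_left hy, one_smul] at h1
      apply hv0
      have h2 : y + 0 = y + v := by rw [add_zero]; exact h1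
      exact (add_left_cancel h2).symm
    · intro w hw
      rw [hg, transv_apply, S.hs w v, hvW w hw, zero_smul, add_zero]
  · push_neg at hv
    obtain ⟨a, b, ha, hb, hab, haW, hbW⟩ : ∃ a b : V, a ≠ 0 ∧ b ≠ 0 ∧ a ≠ b ∧ a ∈ S.perp W ∧ b ∈ S.perp W := by
      haveI : Fintype (S.perp W) := Fintype.ofFinite _
      rw [Nat.card_eq_fintype_card, Fintype.two_lt_card_iff] at hW
      obtain ⟨p, q, r, hpq, hpr, hqr⟩ := hW
      have hp' : (p : V) ≠ q := fun h => hpq (Subtype.ext h)
      have hpr' : (p : V) ≠ r := fun h => hpr (Subtype.ext h)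
      have hqr' : (q : V) ≠ r := fun h => hqr (Subtype.ext h)
      by_cases hp0 : (p : V) = 0
      · exact ⟨q, r, fun h => hp' (hp0.trans h.symm), fun h => hpr' (hp0.trans h.symm), hqr', q.2, r.2⟩
      · by_cases hq0 : (q : V) = 0
        · exact ⟨p, r, hp0, fun h => hqr' (hq0.trans h.symm), hpr', p.2, r.2⟩
        · exact ⟨p, q, hp0, hq0, hp', p.2, q.2⟩
    have hQa := hv a haW
    have hQb := hv b hbW
    have hBab : B a b = 0 := by
      have h1 := S.hQ a b
      rw [hv _ ((S.perp W).add_mem haW hbW), hQa, hQb, zero_add, zero_add] at h1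
      exact h1.symm
    obtain ⟨g, hg⟩ := hsurj (S.siegel a b) (S.siegel_invol (S.B_self a) (S.B_self b) hBab)
      (S.siegel_isom hQa hQb hBab)
    refine ⟨g, ?_, ?_⟩
    · rintro rfl
      obtain ⟨y, hy⟩ := S.hnd a ha
      have h1 := hg y
      rw [one_smul, siegel_apply, (two_val S.hF _).resolve_left hy, one_smul] at h1
      rcases two_val S.hF (B y b) with h2 | h2
      · rw [h2, zero_smul, add_zero] at h1
        apply hb
        have h3 : y + 0 = y + b := by rw [add_zero]; exact h1
        exact (add_left_cancel h3).symm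
      · rw [h2, one_smul, add_assoc] at h1
        have h3 : y + 0 = y + (b + a) := by rw [add_zero]; exact h1
        have h4 : b + a = 0 := (add_left_cancel h3).symm
        apply hab
        have h5 := S.vec_add_self a
        exact (add_right_cancel (h4.trans h5.symm)).symm
    · intro w hw
      rw [hg, siegel_apply, S.hs w a, S.hs w b, haW w hw, hbW w hw, zero_smul, zero_smul, add_zero, add_zero]

include S in
/-- The main abstract theorem. -/
theorem main [Finite G] (hisom : ∀ (g : G) (x : V), Q (g • x) = Q x)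
    (hfaith : ∀ g : G, (∀ x : V, g • x = x) → g = 1)
    (hsurj : ∀ t : V →+ V, (∀ x, t (t x) = x) → (∀ x, Q (t x) = Q x) → ∃ g : G, ∀ x, g • x = t x)
    {m : ℕ} (hm : 1 ≤ m) (hV : Nat.card V = 2 ^ (2 * m))
    (hN : (Nat.card {x : V // Q x = 0} : ℤ) * 2 = 2 ^ (2 * m) + 2 ^ m)
    (H : Sylow 2 G) (x : G) :
    (H : Subgroup G) ⊓ MulAut.conj x • (H : Subgroup G) ≠ ⊥ := by
  classical
  obtain ⟨U, T, hU, hd, hHT, hTst, hTodd, hTall⟩ :=
    S.chain_all hisom hV hN H.isPGroup' (m - 1) (by omega)
  -- `T` is a 2-group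
  have hT1 : ∀ g ∈ T, Odd (orderOf g) → g = 1 := fun g hg hodd =>
    S.odd_eq_one hisom hfaith hm hV hN hU hd (hTst g hg) hodd (hTodd g hg hodd)
  have hTp : IsPGroup 2 T := by
    intro g
    obtain ⟨k, n, hn, hk⟩ := Nat.exists_eq_two_pow_mul_odd (orderOf_pos (g : G)).ne'
    refine ⟨k, ?_⟩
    apply Subtype.ext
    have h1 : orderOf ((g : G) ^ (2 ^ k)) = n := by
      rw [orderOf_pow' _ (by positivity), hk, Nat.gcd_eq_right (dvd_mul_right _ _)]
      exact Nat.mul_div_cancel_left _ (by positivity)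
    have h2 := hT1 ((g : G) ^ (2 ^ k)) (T.pow_mem g.2 _) (by rw [h1]; exact hn)
    simpa using h2
  have hTH : T = (H : Subgroup G) := H.is_maximal' hTp hHT
  -- the subgroup spanned by `U` and its translate
  let φ : V →+ V := DistribSMul.toAddMonoidHom V x
  have hφ : Function.Injective φ := fun a b hab => smul_left_cancel x hab
  let W : AddSubgroup V := U ⊔ U.map φ
  have hWcard : Nat.card W ≤ 2 ^ (m - 1) * 2 ^ (m - 1) := by
    have hmap : Nat.card (U.map φ) = 2 ^ (m - 1) := by
      rw [AddSubgroup.card_map_of_injective hφ, hd]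
    let f : U × U.map φ → W := fun p => ⟨(p.1 : V) + (p.2 : V),
      W.add_mem (AddSubgroup.mem_sup_left p.1.2) (AddSubgroup.mem_sup_right p.2.2)⟩
    have hf : Function.Surjective f := by
      rintro ⟨w, hw⟩
      obtain ⟨a, ha, b, hb, rfl⟩ := AddSubgroup.mem_sup.mp hw
      exact ⟨(⟨a, ha⟩, ⟨b, hb⟩), rfl⟩
    have := Nat.card_le_card_of_surjective f hf
    rwa [Nat.card_prod, hd, hmap] at this
  have hP : 2 < Nat.card (S.perp W) := by
    have h1 := S.card_mul_card_perp W
    rw [hV] at h1
    obtain ⟨n, rfl⟩ : ∃ n, m = n + 1 := ⟨m - 1, by omega⟩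
    simp only [Nat.add_sub_cancel] at hWcard
    by_contra hle
    push_neg at hle
    have h2 : Nat.card W * Nat.card (S.perp W) ≤ (2 ^ n * 2 ^ n) * 2 := Nat.mul_le_mul hWcard hle
    have e : (2 : ℕ) ^ (2 * (n + 1)) = (2 ^ n * 2 ^ n) * 4 := by ring
    rw [h1, e] at h2
    have h3 : 0 < 2 ^ n * 2 ^ n := by positivity
    nlinarith
  obtain ⟨t, ht1, htW⟩ := S.exists_fix hfaith hsurj W hP
  intro hbot
  apply ht1
  have hmem : t ∈ (H : Subgroup G) ⊓ MulAut.conj x • (H : Subgroup G) := by
    refine Subgroup.mem_inf.mpr ⟨?_, ?_⟩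
    · rw [← hTH]
      exact hTall t fun u hu => htW u (AddSubgroup.mem_sup_left hu)
    · rw [Subgroup.mem_pointwise_smul_iff_inv_smul_mem, ← hTH]
      apply hTall
      intro u hu
      have h1 : t • (x • u) = x • u := htW _ (AddSubgroup.mem_sup_right ⟨u, hu, rfl⟩)
      have e : ((MulAut.conj x)⁻¹ • t) = x⁻¹ * t * x := by
        rw [MulAut.smul_def, MulAut.conj_inv_apply]
      rw [e, mul_smul, mul_smul, h1, inv_smul_smul]
  rw [hbot] at hmem
  exact Subgroup.mem_bot.mp hmem

end Qsp

end Action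

end Cfsg.Agent.Lib.OrthSylow2.Main
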